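import Cfsg.Agent.Lib.Helper32.BG10Basic
import Cfsg.Agent.S1461
import Cfsg.Agent.S1459

/-!
# B&G 10.8 (piece P8 of helper32's Section 10 project; helper92)
-/

set_option autoImplicit false

open Cfsg Cfsg.Agent.Lib.Helper32 Cfsg.Agent.Lib.Helper32.BG10

namespace Cfsg.Agent.Lib.Helper92.BG10

universe u

variable {G : Type u} [Group G] [Finite G]

theorem bg10_8 (hG : IsMinSimpleOddOrder G) (hder : SigDer G) (h7 : H7 G) : H8 G := by
  intro p _ P V hV
  obtain ⟨hQN, hVN, hQV, hmul⟩ := hV
  by_cases hQ1 : (P : Subgroup G) = ⊥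
  · rw [hQ1]
    exact ⟨(Subgroup.commutator_bot_left V).symm, bot_le⟩
  have hQtop : (P : Subgroup G) ≠ ⊤ := minSimple_pgroup_ne_top hG P.isPGroup'
  have hNtop : Subgroup.normalizer ((P : Subgroup G) : Set G) ≠ ⊤ :=
    minSimple_normalizer_ne_top hG hQ1 hQtop
  obtain ⟨M, hM, hNM⟩ := exists_coatom_ge hNtop
  have hQM : (P : Subgroup G) ≤ M := hQN.trans hNM
  -- `Q` is a Sylow subgroup of `M`
  have hQ : (P : Subgroup G) ∈ sylSet p M := by
    obtain ⟨R, hR, hQR⟩ := exists_sylSet_ge P.isPGroup' hQM
    have := P.is_maximal' (isPGroup_of_mem_sylSet hR) hQR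
    rw [← this]
    exact hR
  have hpσ : p ∈ sigma M := mem_sigma_of_normalizer_le hQ hQ1 hNM
  obtain ⟨S, hS⟩ := exists_sylow_of_mem_sylSet hQ
  have hSder := hder M hM p hpσ S
  have hpl : PLengthLE p 1 ↥M := h7 p M hM.1
  have hsolM : Group.IsSolvable ↥M := minSimple_solvable hG hM.1
  have h1 := (Cfsg.Agent.S1461.result p hpl S).1 hSder
  -- the normalizer of `S` in `M` maps onto `N`
  have hmapN : (Subgroup.normalizer ((S : Subgroup ↥M) : Set ↥M)).map M.subtype
      = Subgroup.normalizer ((P : Subgroup G) : Set G) := by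
    apply le_antisymm
    · rintro x ⟨y, hy, rfl⟩
      have := mem_normalizer_map_subtype hy
      rw [hS] at this
      exact this
    · intro x hx
      refine ⟨⟨x, hNM hx⟩, ?_, rfl⟩
      have hmemS : ∀ s : ↥M, s ∈ (S : Subgroup ↥M) ↔ (s : G) ∈ (P : Subgroup G) := by
        intro s
        rw [← hS]
        constructor
        · intro hs
          exact ⟨s, hs, rfl⟩
        · rintro ⟨t, ht, hts⟩
          have : t = s := Subtype.ext hts
          rw [← this]
          exact ht
      rw [SetLike.mem_coe, Subgroup.mem_normalizer_iff]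
      intro s
      rw [hmemS, hmemS]
      exact (Subgroup.mem_normalizer_iff.mp hx) (s : G)
  have hQNN : (P : Subgroup G) ≤ ⁅Subgroup.normalizer ((P : Subgroup G) : Set G),
      Subgroup.normalizer ((P : Subgroup G) : Set G)⁆ := by
    have h2 := Subgroup.map_mono (f := M.subtype) h1
    rw [Subgroup.map_commutator, hmapN, hS] at h2
    exact h2
  refine ⟨?_, hQNN⟩
  -- work in `N`
  have hsolN : Group.IsSolvable ↥(Subgroup.normalizer ((P : Subgroup G) : Set G)) :=
    minSimple_solvable hG hNtop
  have hHn : ((P : Subgroup G).subgroupOf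
      (Subgroup.normalizer ((P : Subgroup G) : Set G))).Normal := Subgroup.normal_in_normalizer
  have hHall : (Nat.card ((P : Subgroup G).subgroupOf
      (Subgroup.normalizer ((P : Subgroup G) : Set G)))).Coprime
      ((P : Subgroup G).subgroupOf (Subgroup.normalizer ((P : Subgroup G) : Set G))).index := by
    rw [Nat.card_congr (Subgroup.subgroupOfEquivOfLe hQN).toEquiv]
    have h3 : (P : Subgroup G).relIndex (Subgroup.normalizer ((P : Subgroup G) : Set G))
        ∣ (P : Subgroup G).index := by
      rw [← Subgroup.relIndex_mul_index hQN]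
      exact dvd_mul_right _ _
    exact Nat.Coprime.coprime_dvd_right h3 P.card_coprime_index
  have hcompl : Subgroup.IsComplement'
      ((P : Subgroup G).subgroupOf (Subgroup.normalizer ((P : Subgroup G) : Set G)))
      (V.subgroupOf (Subgroup.normalizer ((P : Subgroup G) : Set G))) := by
    apply Subgroup.isComplement'_of_disjoint_and_mul_eq_univ
    · rw [Subgroup.disjoint_def]
      intro x hx hx'
      have : (x : G) ∈ (P : Subgroup G) ⊓ V := ⟨hx, hx'⟩
      rw [hQV, Subgroup.mem_bot] at this
      exact Subtype.ext this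
    · apply Set.eq_univ_of_forall
      intro m
      obtain ⟨a, ha, b, hb, hab⟩ := hmul m.1 m.2
      exact ⟨⟨a, hQN ha⟩, ha, ⟨b, hVN hb⟩, hb, Subtype.ext hab.symm⟩
  have hcomm : (commutator ↥(Subgroup.normalizer ((P : Subgroup G) : Set G))).map
      (Subgroup.normalizer ((P : Subgroup G) : Set G)).subtype
      = ⁅Subgroup.normalizer ((P : Subgroup G) : Set G),
        Subgroup.normalizer ((P : Subgroup G) : Set G)⁆ := by
    rw [commutator_def, Subgroup.map_commutator, ← MonoidHom.range_eq_map, Subgroup.range_subtype]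
  have hle : (P : Subgroup G).subgroupOf (Subgroup.normalizer ((P : Subgroup G) : Set G))
      ≤ commutator ↥(Subgroup.normalizer ((P : Subgroup G) : Set G)) := by
    intro x hx
    have hx' : (x : G) ∈ ⁅Subgroup.normalizer ((P : Subgroup G) : Set G),
        Subgroup.normalizer ((P : Subgroup G) : Set G)⁆ := hQNN hx
    rw [← hcomm] at hx'
    obtain ⟨y, hy, hyx⟩ := hx'
    have : y = x := Subtype.ext hyx
    rw [← this]
    exact hy
  have h4 := (Cfsg.Agent.S1459.result.1 _ _ hHn hHall hcompl hle).1
  have h5 := congrArg (Subgroup.map (Subgroup.normalizer ((P : Subgroup G) : Set G)).subtype) h4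
  rw [Subgroup.map_commutator, Subgroup.map_subgroupOf_eq_of_le hQN,
    Subgroup.map_subgroupOf_eq_of_le hVN] at h5
  exact h5

end Cfsg.Agent.Lib.Helper92.BG10
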