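import Mathlib
import Cfsg.Agent.Lib.Helper59.XS0

/-!
# Piece L of S3054 / S3055 (helper92 for helper59): fixed points on the projective line

A non-scalar element of `GL₂(K)`, `K` algebraically closed, of finite order prime to the
characteristic fixes exactly two points of the projective line.
-/

set_option autoImplicit false

namespace Cfsg.Agent.Lib.Helper92.XSL

open Matrix

/-- Powers of (scalar + square-zero). -/
theorem pow_scalar_add_nilp {K : Type*} [Field K] (s : K) (N : Matrix (Fin 2) (Fin 2) K)
    (hN : N * N = 0) (k : ℕ) :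
    (s • (1 : Matrix (Fin 2) (Fin 2) K) + N) ^ (k + 1)
      = s ^ (k + 1) • (1 : Matrix (Fin 2) (Fin 2) K) + (((k : K) + 1) * s ^ k) • N := by
  induction k with
  | zero => simp
  | succ k ih =>
    rw [pow_succ, ih]
    simp only [add_mul, mul_add, smul_mul_assoc, mul_smul_comm, one_mul, mul_one, hN, smul_zero,
      add_zero]
    push_cast
    module

/-- A matrix of finite order prime to the characteristic which is scalar plus square-zero
is scalar. -/
theorem nilp_eq_zero {K : Type*} [Field K] (m N : Matrix (Fin 2) (Fin 2) K) (s : K)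
    (hm : m = s • (1 : Matrix (Fin 2) (Fin 2) K) + N) (hN : N * N = 0)
    (n : ℕ) (hn : (n : K) ≠ 0) (hmn : m ^ n = 1) : N = 0 := by
  obtain ⟨k, rfl⟩ : ∃ k, n = k + 1 := by
    refine Nat.exists_eq_succ_of_ne_zero ?_
    rintro rfl
    simp at hn
  rw [hm, pow_scalar_add_nilp s N hN k] at hmn
  by_contra hN0
  have h1 : N = s ^ (k + 1) • N := by
    have := congrArg (· * N) hmn
    simp only [add_mul, smul_mul_assoc, one_mul, hN, smul_zero, add_zero] at this
    exact this.symm
  have h2 : s ^ (k + 1) = 1 := by
    have : (1 - s ^ (k + 1)) • N = 0 := by rw [sub_smul, one_smul, ← h1, sub_self]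
    rcases smul_eq_zero.mp this with h | h
    · exact (sub_eq_zero.mp h).symm
    · exact absurd h hN0
  have hs : s ≠ 0 := by
    rintro rfl
    simp at h2
  rw [h2, one_smul] at hmn
  have h3 : (((k : K) + 1) * s ^ k) • N = 0 := by
    simpa using hmn
  rcases smul_eq_zero.mp h3 with h | h
  · rcases mul_eq_zero.mp h with h | h
    · apply hn
      push_cast
      exact h
    · exact hs (eq_zero_of_pow_eq_zero h)
  · exact hN0 h

end Cfsg.Agent.Lib.Helper92.XSL

namespace Cfsg.Agent.Lib.Helper59.XS

open Matrix Cfsg.Agent.Lib.Helper92.XSL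

theorem fixed_points_ncard {K : Type*} [Field K] [IsAlgClosed K]
    (M : Matrix.GeneralLinearGroup (Fin 2) K) (n : ℕ) (hn : (n : K) ≠ 0) (hM : M ^ n = 1)
    (hns : ∀ c : K, (M : Matrix (Fin 2) (Fin 2) K) ≠ c • (1 : Matrix (Fin 2) (Fin 2) K)) :
    (MulAction.fixedBy (Projectivization K (Fin 2 → K)) M).ncard = 2 := by
  classical
  have himg : MulAction.fixedBy (Projectivization K (Fin 2 → K)) M
      = (OnePoint.equivProjectivization K) '' (MulAction.fixedBy (OnePoint K) M) := by
    ext x
    simp only [MulAction.mem_fixedBy, Set.mem_image]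
    constructor
    · intro hx
      refine ⟨(OnePoint.equivProjectivization K).symm x, ?_, by simp⟩
      apply (OnePoint.equivProjectivization K).injective
      rw [OnePoint.equivProjectivization_smul]
      simpa using hx
    · rintro ⟨y, hy, rfl⟩
      rw [← OnePoint.equivProjectivization_smul, hy]
  rw [himg, Set.ncard_image_of_injective _ (OnePoint.equivProjectivization K).injective]
  have hMn : (M : Matrix (Fin 2) (Fin 2) K) ^ n = 1 := by
    have := congrArg (fun g : Matrix.GeneralLinearGroup (Fin 2) K =>
      (g : Matrix (Fin 2) (Fin 2) K)) hM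
    simpa using this
  have hdet : M 0 0 * M 1 1 - M 0 1 * M 1 0 ≠ 0 := by
    have := M.det_ne_zero
    rwa [Matrix.det_fin_two] at this
  by_cases hc : M 1 0 = 0
  · by_cases had : M 1 1 = M 0 0
    · exfalso
      have hN : (!![0, M 0 1; 0, 0] : Matrix (Fin 2) (Fin 2) K) = 0 := by
        refine nilp_eq_zero (M : Matrix (Fin 2) (Fin 2) K) _ (M 0 0) ?_ ?_ n hn hMn
        · ext i j
          fin_cases i <;> fin_cases j <;> simp [hc, had]
        · ext i j
          fin_cases i <;> fin_cases j <;> simp [Matrix.mul_apply, Fin.sum_univ_two]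
      have hb : M 0 1 = 0 := by
        have := congrFun (congrFun hN 0) 1
        simpa using this
      apply hns (M 0 0)
      ext i j
      fin_cases i <;> fin_cases j <;> simp [hc, had, hb]
    · have hd : M 1 1 ≠ 0 := by
        intro h
        apply hdet
        rw [h, hc]
        ring
      have hda : M 1 1 - M 0 0 ≠ 0 := sub_ne_zero.mpr had
      have hset : MulAction.fixedBy (OnePoint K) M
          = {OnePoint.infty, ((M 0 1 / (M 1 1 - M 0 0) : K) : OnePoint K)} := by
        ext x
        rw [MulAction.mem_fixedBy]
        cases x with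
        | infty =>
          simp [OnePoint.smul_infty_eq_self_iff, hc]
        | coe k =>
          rw [OnePoint.smul_some_eq_ite]
          simp only [hc, zero_mul, zero_add, hd, if_false, Set.mem_insert_iff,
            Set.mem_singleton_iff, OnePoint.coe_ne_infty, false_or, OnePoint.coe_eq_coe]
          rw [div_eq_iff hd, eq_div_iff hda]
          constructor
          · intro h
            linear_combination -h
          · intro h
            linear_combination -h
      rw [hset]
      exact Set.ncard_pair (OnePoint.infty_ne_coe _)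
  · obtain ⟨k₁, hk₁⟩ : ∃ k₁ : K, M 1 0 * k₁ ^ 2 + (M 1 1 - M 0 0) * k₁ - M 0 1 = 0 := by
      have hdeg : (Polynomial.C (M 1 0) * Polynomial.X ^ 2 + Polynomial.C (M 1 1 - M 0 0)
          * Polynomial.X + Polynomial.C (- M 0 1)).degree ≠ 0 := by
        rw [Polynomial.degree_quadratic hc]
        decide
      obtain ⟨k₁, hk₁⟩ := IsAlgClosed.exists_root _ hdeg
      refine ⟨k₁, ?_⟩
      have := hk₁
      simp only [Polynomial.IsRoot.def, Polynomial.eval_add, Polynomial.eval_mul,
        Polynomial.eval_C, Polynomial.eval_pow, Polynomial.eval_X] at this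
      linear_combination this
    obtain ⟨k₂, hk₂⟩ : ∃ k₂ : K, k₂ = -(M 1 1 - M 0 0) / M 1 0 - k₁ := ⟨_, rfl⟩
    have hsum : M 1 0 * (k₁ + k₂) + (M 1 1 - M 0 0) = 0 := by
      rw [hk₂]
      field_simp
      ring
    have hfac : ∀ k : K, M 1 0 * k ^ 2 + (M 1 1 - M 0 0) * k - M 0 1
        = M 1 0 * ((k - k₁) * (k - k₂)) := by
      intro k
      linear_combination hk₁ + (k - k₁) * hsum
    have hset : MulAction.fixedBy (OnePoint K) M
        = {((k₁ : K) : OnePoint K), ((k₂ : K) : OnePoint K)} := by
      ext x
      rw [MulAction.mem_fixedBy]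
      cases x with
      | infty =>
        simp [OnePoint.smul_infty_eq_self_iff, hc]
      | coe k =>
        rw [← Matrix.GeneralLinearGroup.fixpointPolynomial_aeval_eq_zero_iff]
        simp only [Matrix.GeneralLinearGroup.fixpointPolynomial, map_sub, map_add, map_mul,
          Polynomial.aeval_C, Polynomial.aeval_X, map_pow, Algebra.algebraMap_self_apply,
          Set.mem_insert_iff, Set.mem_singleton_iff, OnePoint.coe_eq_coe]
        rw [hfac k]
        simp only [mul_eq_zero, hc, false_or, sub_eq_zero]
    rw [hset]
    by_cases hk : k₁ = k₂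
    · exfalso
      subst hk
      have hN : (!![M 1 0 * k₁, M 0 1; M 1 0, -(M 1 0 * k₁)] : Matrix (Fin 2) (Fin 2) K) = 0 := by
        refine nilp_eq_zero (M : Matrix (Fin 2) (Fin 2) K) _ (M 0 0 - M 1 0 * k₁) ?_ ?_ n hn hMn
        · ext i j
          fin_cases i <;> fin_cases j <;> simp
          · linear_combination hsum
        · ext i j
          fin_cases i <;> fin_cases j <;> simp [Matrix.mul_apply, Fin.sum_univ_two]
          · linear_combination (M 1 0 * k₁) * hsum - (M 1 0) * hk₁
          · ring
          · ring
          · linear_combination (M 1 0 * k₁) * hsum - (M 1 0) * hk₁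
      have := congrFun (congrFun hN 1) 0
      exact hc (by simpa using this)
    · exact Set.ncard_pair (fun h => hk (OnePoint.coe_injective h))

end Cfsg.Agent.Lib.Helper59.XS
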