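import Cfsg.Agent.Lib.Helper46.BSW0
import Cfsg.Agent.Lib.Helper35.CnTi
import Cfsg.Agent.Lib.Helper90.BSWAB

/-!
Job-board piece G1 of helper46's S3282 (Brauer–Suzuki–Wall) project: elementary consequences of
the set-up.
-/

set_option autoImplicit false

namespace Cfsg.Agent.Lib.Helper92.BSWG1

open Cfsg Cfsg.Agent.Lib.Helper4 Cfsg.Agent.Lib.Helper46.BSW

universe u

variable {G : Type u} [Group G] {t s : G} {K : Subgroup G}

theorem s_mul_s (h : Setup t s K) : s * s = 1 := by
  have := pow_orderOf_eq_one s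
  rw [h.hs, pow_two] at this
  exact this

theorem s_inv (h : Setup t s K) : s⁻¹ = s := inv_eq_of_mul_eq_one_left (s_mul_s h)

theorem t_mul_t (h : Setup t s K) : t * t = 1 := by
  have := pow_orderOf_eq_one t
  rw [h.ht, pow_two] at this
  exact this

theorem t_inv (h : Setup t s K) : t⁻¹ = t := inv_eq_of_mul_eq_one_left (t_mul_t h)

theorem t_ne_one (h : Setup t s K) : t ≠ 1 := by
  intro h1
  have := h.ht
  rw [h1, orderOf_one] at this
  omega

/-- `K ∪ K s` as a subgroup. -/
def KS (h : Setup t s K) : Subgroup G where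
  carrier := {g | g ∈ K ∨ g * s⁻¹ ∈ K}
  one_mem' := Or.inl K.one_mem
  mul_mem' := by
    intro a b ha hb
    rcases ha with ha | ha <;> rcases hb with hb | hb
    · exact Or.inl (K.mul_mem ha hb)
    · right
      rw [mul_assoc]
      exact K.mul_mem ha hb
    · right
      have h1 : a * b * s⁻¹ = (a * s⁻¹) * (s * b * s⁻¹) := by group
      rw [h1, h.hinv b hb]
      exact K.mul_mem ha (K.inv_mem hb)
    · left
      have h1 : a * b = (a * s⁻¹) * (s * (b * s⁻¹) * s⁻¹) * (s * s) := by group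
      rw [h1, h.hinv _ hb, s_mul_s h, mul_one]
      exact K.mul_mem ha (K.inv_mem hb)
  inv_mem' := by
    intro a ha
    rcases ha with ha | ha
    · exact Or.inl (K.inv_mem ha)
    · right
      have h1 : a⁻¹ * s⁻¹ = (s * s)⁻¹ * (s * (a * s⁻¹)⁻¹ * s⁻¹) := by group
      rw [h1, h.hinv _ (K.inv_mem ha), s_mul_s h, inv_one, one_mul, inv_inv]
      exact ha

theorem mem_KS (h : Setup t s K) (g : G) : g ∈ KS h ↔ g ∈ K ∨ g * s⁻¹ ∈ K := Iff.rfl

theorem cent_le_KS (h : Setup t s K) : Subgroup.centralizer ({t} : Set G) ≤ KS h := by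
  rw [← h.hH]
  apply sup_le
  · intro g hg
    exact Or.inl hg
  · rw [Subgroup.zpowers_le]
    right
    rw [mul_inv_cancel]
    exact K.one_mem

end Cfsg.Agent.Lib.Helper92.BSWG1

namespace Cfsg.Agent.Lib.Helper46.BSW

open Cfsg Cfsg.Agent.Lib.Helper4 Cfsg.Agent.Lib.Helper92.BSWG1

universe u

variable {G : Type u} [Group G]

section G1
variable {t s : G} {K : Subgroup G}

theorem setup_sq (h : Setup t s K) : ∀ x ∈ K, x * x = 1 → x = 1 ∨ x = t := by
  intro x hx hxx
  have hxinv : x⁻¹ = x := inv_eq_of_mul_eq_one_left hxx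
  have h1 : x ∈ K ⊓ Subgroup.centralizer ({s} : Set G) := by
    refine Subgroup.mem_inf.mpr ⟨hx, ?_⟩
    rw [Subgroup.mem_centralizer_singleton_iff]
    have h2 := h.hinv x hx
    rw [hxinv] at h2
    calc x * s = (s * x * s⁻¹) * s := by rw [h2]
      _ = s * x := by group
  rw [h.hCK, Subgroup.mem_zpowers_iff] at h1
  obtain ⟨k, hk⟩ := h1
  rw [← zpow_mod_orderOf, h.ht] at hk
  push_cast at hk
  have h3 : k % 2 = 0 ∨ k % 2 = 1 := by omega
  rcases h3 with h3 | h3
  · left
    rw [h3, zpow_zero] at hk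
    exact hk.symm
  · right
    rw [h3, zpow_one] at hk
    exact hk.symm

theorem setup_cent_mem (h : Setup t s K) :
    ∀ g ∈ Subgroup.centralizer ({t} : Set G), g ∈ K ∨ (g * s⁻¹ ∈ K ∧ orderOf g = 2) := by
  intro g hg
  rcases cent_le_KS h hg with h1 | h1
  · exact Or.inl h1
  · right
    refine ⟨h1, ?_⟩
    have hgg : g * g = 1 := by
      have h2 : g * g = (g * s⁻¹) * (s * (g * s⁻¹) * s⁻¹) * (s * s) := by group
      rw [h2, h.hinv _ h1, s_mul_s h, mul_one, mul_inv_cancel]
    have hg1 : g ≠ 1 := by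
      intro hg1
      rw [hg1, one_mul] at h1
      exact h.hsK (by simpa using K.inv_mem h1)
    have : Fact (Nat.Prime 2) := ⟨Nat.prime_two⟩
    exact orderOf_eq_prime (by rw [pow_two]; exact hgg) hg1

theorem setup_ti (h : Setup t s K) :
    ∀ g : G, ∀ x ∈ K, x ≠ 1 → g * x * g⁻¹ ∈ K → g ∈ Subgroup.centralizer ({t} : Set G) := by
  intro g x hx hx1 hgx
  by_contra hg
  have h1 := h.hTI g hg
  have h2 : g * x * g⁻¹ ∈ K ⊓ K.map (MulAut.conj g).toMonoidHom :=
    Subgroup.mem_inf.mpr ⟨hgx, Subgroup.mem_map.mpr ⟨x, hx, by simp [MulAut.conj_apply]⟩⟩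
  rw [h1, Subgroup.mem_bot] at h2
  apply hx1
  have h3 : x = g⁻¹ * (g * x * g⁻¹) * g := by group
  rw [h3, h2]
  group

theorem setup_ti' (h : Setup t s K) :
    ∀ g : G, ∀ x ∈ K, x ≠ 1 → g * x * g⁻¹ ∈ K → g ∈ K ∨ g * s⁻¹ ∈ K := by
  intro g x hx hx1 hgx
  rcases setup_cent_mem h g (setup_ti h g x hx hx1 hgx) with h1 | h1
  · exact Or.inl h1
  · exact Or.inr h1.1

theorem setup_cent_le (h : Setup t s K) :
    ∀ x ∈ K, x ≠ 1 →
      Subgroup.centralizer ({x} : Set G) ≤ Subgroup.centralizer ({t} : Set G) := by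
  intro x hx hx1 g hg
  rw [Subgroup.mem_centralizer_singleton_iff] at hg
  apply setup_ti h g x hx hx1
  have h1 : g * x * g⁻¹ = x := by
    rw [hg]
    group
  rw [h1]
  exact hx

theorem setup_cent_eq (h : Setup t s K) :
    ∀ x ∈ K, x ≠ 1 → x ≠ t → Subgroup.centralizer ({x} : Set G) = K := by
  intro x hx hx1 hxt
  apply le_antisymm
  · intro g hg
    have hgH := setup_cent_le h x hx hx1 hg
    rw [Subgroup.mem_centralizer_singleton_iff] at hg
    rcases setup_cent_mem h g hgH with h1 | h1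
    · exact h1
    · exfalso
      have h2 : g * x * g⁻¹ = x := by
        rw [hg]
        group
      have h3 : g * x * g⁻¹ = (g * s⁻¹) * (s * x * s⁻¹) * (g * s⁻¹)⁻¹ := by group
      rw [h3, h.hinv x hx, h.hKab _ h1.1 _ (K.inv_mem hx), mul_assoc, mul_inv_cancel,
        mul_one] at h2
      have h4 : x * x = 1 := by
        nth_rewrite 1 [← h2]
        exact inv_mul_cancel x
      rcases setup_sq h x hx h4 with h5 | h5
      · exact hx1 h5
      · exact hxt h5
  · intro g hg
    rw [Subgroup.mem_centralizer_singleton_iff]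
    exact (h.hKab x hx g hg).symm

theorem setup_normalizer (h : Setup t s K) :
    Subgroup.normalizer (K : Set G) = Subgroup.centralizer ({t} : Set G) := by
  apply le_antisymm
  · intro g hg
    rw [Subgroup.mem_normalizer_iff] at hg
    exact setup_ti h g t h.htK (t_ne_one h) ((hg t).mp h.htK)
  · rw [← h.hH]
    apply sup_le Subgroup.le_normalizer
    rw [Subgroup.zpowers_le, Subgroup.mem_normalizer_iff]
    intro x
    constructor
    · intro hx
      rw [h.hinv x hx]
      exact K.inv_mem hx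
    · intro hx
      have h1 := h.hinv _ hx
      have h2 : s * (s * x * s⁻¹) * s⁻¹ = (s * s) * x * (s * s)⁻¹ := by group
      rw [h2, s_mul_s h, one_mul, inv_one, mul_one] at h1
      rw [h1]
      exact K.inv_mem hx

theorem setup_invol_not_off (h : Setup t s K) : ∀ u : G, orderOf u = 2 → ¬ Off K u := by
  intro u hu hoff
  obtain ⟨c, hc⟩ := isConj_iff.mp (h.hconj u t hu h.ht)
  apply hoff c
  rw [hc]
  exact h.htK

theorem setup_cent_not_off (h : Setup t s K) :
    ∀ g ∈ Subgroup.centralizer ({t} : Set G), ¬ Off K g := by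
  intro g hg hoff
  rcases setup_cent_mem h g hg with h1 | h1
  · apply hoff 1
    simpa using h1
  · exact setup_invol_not_off h g h1.2 hoff

theorem setup_card_cent [Finite G] (h : Setup t s K) :
    Nat.card (Subgroup.centralizer ({t} : Set G)) = 2 * Nat.card K := by
  have h1 : K.relIndex (Subgroup.centralizer ({t} : Set G)) = 2 := by
    rw [Subgroup.relIndex_eq_two_iff]
    refine ⟨s⁻¹, (Subgroup.centralizer ({t} : Set G)).inv_mem h.hsH, ?_⟩
    intro b hb
    rcases cent_le_KS h hb with h2 | h2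
    · right
      refine ⟨h2, ?_⟩
      intro h3
      apply h.hsK
      have h4 : s = (b * s⁻¹)⁻¹ * b := by group
      rw [h4]
      exact K.mul_mem (K.inv_mem h3) h2
    · by_cases h3 : b ∈ K
      · exfalso
        apply h.hsK
        have h4 : s = (b * s⁻¹)⁻¹ * b := by group
        rw [h4]
        exact K.mul_mem (K.inv_mem h2) h3
      · left
        exact ⟨h2, h3⟩
  have h2 := Subgroup.relIndex_mul_relIndex (⊥ : Subgroup G) K
    (Subgroup.centralizer ({t} : Set G)) bot_le h.hKH
  rw [Subgroup.relIndex_bot_left, Subgroup.relIndex_bot_left, h1] at h2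
  rw [← h2, mul_comm]

theorem setup_even [Finite G] (h : Setup t s K) : Even (Nat.card K) := by
  rw [even_iff_two_dvd]
  have h1 : orderOf (⟨t, h.htK⟩ : K) = 2 := by
    rw [← h.ht, ← Subgroup.orderOf_coe]
  rw [← h1]
  exact orderOf_dvd_natCard _

open scoped Classical in
theorem setup_count [Fintype G] (h : Setup t s K) (F : G → ℂ) (hF : IsClassFunction G F) :
    ∑ g : G, (if ¬ Off K g ∧ g ≠ 1 then F g else 0) =
      ((Subgroup.centralizer ({t} : Set G)).index : ℂ) *
        ∑ x : G, (if x ∈ K ∧ x ≠ 1 then F x else 0) := by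
  have hTI : IsTISubset (K : Set G) := by
    intro g hg x hx hgx
    by_contra hx1
    apply hg
    rw [setup_normalizer h]
    exact setup_ti h g x hx hx1 hgx
  have h1 := Cfsg.Agent.Lib.Helper35.ti_count K hTI F hF
  rw [setup_normalizer h] at h1
  rw [← h1]
  apply Finset.sum_congr rfl
  intro g _
  have h2 : (¬ Off K g) ↔ ∃ y : G, y * g * y⁻¹ ∈ K := by
    unfold Off
    push Not
    rfl
  simp only [h2]

theorem exists_l0 [Finite G] (h : Setup t s K) :
    ∃ l₀ : IrrCharacter K, l₀ ≠ trivIrr ∧ cbar l₀ = l₀ ∧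
      ∀ l : IrrCharacter K, cbar l = l → l = trivIrr ∨ l = l₀ := by
  have hab : ∀ a b : K, a * b = b * a := fun a b => Subtype.ext (h.hKab a a.2 b b.2)
  have h2 : Nat.card {x : K // x * x = 1} = 2 := by
    rw [Nat.card_eq_two_iff' (⟨1, one_mul 1⟩ : {x : K // x * x = 1})]
    refine ⟨⟨⟨t, h.htK⟩, Subtype.ext (t_mul_t h)⟩, ?_, ?_⟩
    · intro h3
      have h4 := congrArg (fun y : {x : K // x * x = 1} => ((y : K) : G)) h3
      exact t_ne_one h h4
    · intro y hy
      have h3 : ((y : K) : G) * ((y : K) : G) = 1 := congrArg (fun z : K => (z : G)) y.2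
      rcases setup_sq h _ (y : K).2 h3 with h4 | h4
      · exfalso
        apply hy
        exact Subtype.ext (Subtype.ext h4)
      · exact Subtype.ext (Subtype.ext h4)
  have h1 := ab_real hab
  rw [h2, Nat.card_eq_two_iff' (⟨trivIrr, cbar_triv⟩ : {l : IrrCharacter K // cbar l = l})] at h1
  obtain ⟨⟨l₀, hl₀⟩, hne, huniq⟩ := h1
  refine ⟨l₀, ?_, hl₀, ?_⟩
  · intro h3
    apply hne
    exact Subtype.ext h3
  · intro l hl
    by_cases h3 : l = trivIrr
    · exact Or.inl h3
    · right
      have h4 := huniq ⟨l, hl⟩ (fun h5 => h3 (congrArg Subtype.val h5))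
      exact congrArg Subtype.val h4

end G1

end Cfsg.Agent.Lib.Helper46.BSW
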