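import Mathlib
import Cfsg.Agent.Lib.Helper44.SURegBase

/-!
# Piece FULL of S2282 (helper92 for helper44): the full transvection root group at `e_{m-2}`
-/

set_option autoImplicit false
set_option linter.unusedVariables false
set_option linter.unusedSimpArgs false

namespace Cfsg.Agent.Lib.Helper92.SUReg

open Matrix Cfsg.Agent.Lib.Helper7 Cfsg.Agent.Lib.Helper18 Cfsg.Agent.Lib.Helper93
  Cfsg.Agent.Lib.Helper44.SUReg

variable {F : Type*} [Field F] [Fintype F] {q n m : ℕ}

/-- the hermitian form on combinations of the last frame vectors -/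
theorem hf_cmb (hF : Fintype.card F = q ^ 2) {e f : ℕ → Fin n → F} {d : Fin n → F}
    (fr : WFr q n m e f d) (hm : 2 ≤ m) (x1 x2 x3 x4 y1 y2 y3 y4 : F) :
    Cfsg.hermForm n F q (x1 • e (m - 2) + x2 • e (m - 1) + x3 • d + x4 • f (m - 1))
      (y1 • e (m - 2) + y2 • e (m - 1) + y3 • d + y4 • f (m - 1)) =
      x2 * y4 ^ q + x4 * y2 ^ q + x3 * y3 ^ q := by
  have h2 : m - 2 < m := by omega
  have h1 : m - 1 < m := by omega
  have hne : m - 2 ≠ m - 1 := by omega
  have hne' : m - 1 ≠ m - 2 := by omega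
  have hef : Cfsg.hermForm n F q (e (m - 1)) (f (m - 1)) = 1 := by
    rw [fr.ef _ _ h1 h1, if_pos rfl]
  have hfe : Cfsg.hermForm n F q (f (m - 1)) (e (m - 1)) = 1 := by
    rw [fr.fe hF _ _ h1 h1, if_pos rfl]
  have hef' : Cfsg.hermForm n F q (e (m - 2)) (f (m - 1)) = 0 := by
    rw [fr.ef _ _ h2 h1, if_neg hne]
  have hfe' : Cfsg.hermForm n F q (f (m - 1)) (e (m - 2)) = 0 := by
    rw [fr.fe hF _ _ h1 h2, if_neg hne']
  simp only [hf_add_left, hf_smul_left, hf_add_right hF, hf_smul_right,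
    fr.ee _ _ h2 h2, fr.ee _ _ h2 h1, fr.ee _ _ h1 h2, fr.ee _ _ h1 h1,
    fr.ff _ _ h1 h1, hef, hfe, hef', hfe',
    fr.de _ h2, fr.de _ h1, fr.df _ h1, fr.dd, fr.ed hF _ h2, fr.ed hF _ h1, fr.fd hF _ h1]
  ring

theorem su_full (hF : Fintype.card F = q ^ 2) {H : Subgroup (GL (Fin n) F)}
    (hH : H ≤ Cfsg.GU n F q ⊓ Cfsg.Geo.specialLinear (Fin n) F) (hK : KProp q H)
    {e f : ℕ → Fin n → F} {d : Fin n → F} (fr : WFr q n m e f d) (hm : 2 ≤ m)
    (a b c ε ρ : F) (ha : a ≠ 0) (hb : b + b ^ q + a ^ (q + 1) = 0) (hε : ε ^ (q + 1) = 1)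
    (hc0 : c ≠ 0) (hc : c + c ^ q = 0)
    (hρ : ((2 : F) = 0 ∧ ρ = (b ^ (q + 1)) ^ 2 * a ^ (q + 1) * c ^ 3) ∨
        ((2 : F) ≠ 0 ∧ ρ = 2 * (b ^ (q + 1)) ^ 2 * c ^ 4))
    (hgen : ∀ A : AddSubgroup F, c ∈ A → (∀ x ∈ A, ρ * x ∈ A) →
        ∀ x : F, x + x ^ q = 0 → x ∈ A)
    (ht : TIn q H (e (m - 2)) c)
    (hchain : ∀ c' : F, c' + c' ^ q = 0 → TIn q H (e (m - 2)) c' →
      TIn q H (e (m - 1)) c' ∧ TIn q H (e (m - 2) + e (m - 1)) c' ∧
      TIn q H (e (m - 1) - (ε * a ^ q) • d + b • f (m - 1)) c' ∧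
      TIn q H (e (m - 2) + ((1 - ε * a ^ (q + 1) + b ^ 2) • e (m - 1) -
        (a ^ q * (ε + b)) • d + b • f (m - 1))) c') :
    Cen q H (e (m - 2)) := by
  have h2 : m - 2 < m := by omega
  have h1 : m - 1 < m := by omega
  have hq0 := herm_q_ne_zero hF
  have hvv : Cfsg.hermForm n F q (e (m - 2)) (e (m - 2)) = 0 := fr.ee _ _ h2 h2
  have hww : Cfsg.hermForm n F q (e (m - 1)) (e (m - 1)) = 0 := fr.ee _ _ h1 h1
  have hvw : Cfsg.hermForm n F q (e (m - 2)) (e (m - 1)) = 0 := fr.ee _ _ h2 h1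
  -- the additive subgroup
  let A : AddSubgroup F :=
    { carrier := {x | x + x ^ q = 0 ∧ TIn q H (e (m - 2)) x}
      zero_mem' := ⟨by rw [zero_pow hq0, add_zero], by
        show MIn H _
        rw [ut_zero]; exact MIn.one H⟩
      add_mem' := by
        rintro x y ⟨hx, hx'⟩ ⟨hy, hy'⟩
        refine ⟨by rw [herm_add_pow hF]; linear_combination hx + hy, ?_⟩
        show MIn H _
        rw [← ut_mul n _ x y hvv]
        exact hx'.mul hy'
      neg_mem' := by
        rintro x ⟨hx, hx'⟩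
        refine ⟨by rw [herm_neg_pow hF]; linear_combination -hx, ?_⟩
        show MIn H _
        refine MIn.of_mul_eq_one hx' ?_
        rw [ut_mul n _ x (-x) hvv, add_neg_cancel, ut_zero] }
  have hcA : c ∈ A := ⟨hc, ht⟩
  have hN : a ^ (q + 1) = a ^ q * a := pow_succ a q
  have hNb : b ^ (q + 1) = b ^ q * b := pow_succ b q
  have hNε : ε ^ q * ε = 1 := by rw [← pow_succ]; exact hε
  have hb' : b + b ^ q + a ^ q * a = 0 := by rw [← hN]; exact hb
  have hcq : c ^ q = -c := by linear_combination hc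
  have hNbq : (b ^ q * b) ^ q = b ^ q * b := by rw [mul_pow, herm_pow_pow hF]; ring
  have hNaq : (a ^ q * a) ^ q = a ^ q * a := by rw [mul_pow, herm_pow_pow hF]; ring
  have e1 : ((b ^ q * b) ^ 2) ^ q = (b ^ q * b) ^ 2 := by rw [pow_right_comm, hNbq]
  -- vectors in combination form
  have epm : e (m - 1) - (ε * a ^ q) • d + b • f (m - 1) =
      (0 : F) • e (m - 2) + (1 : F) • e (m - 1) + (-(ε * a ^ q)) • d + b • f (m - 1) := by
    module
  have ep2 : e (m - 2) + ((1 - ε * a ^ (q + 1) + b ^ 2) • e (m - 1) - (a ^ q * (ε + b)) • d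
        + b • f (m - 1)) =
      (1 : F) • e (m - 2) + (1 - ε * (a ^ q * a) + b * b) • e (m - 1)
        + (-(a ^ q * (ε + b))) • d + b • f (m - 1) := by
    rw [hN]; module
  have ev : (1 : F) • e (m - 2) + (0 : F) • e (m - 1) + (0 : F) • d + (0 : F) • f (m - 1)
      = e (m - 2) := by module
  have ew : (0 : F) • e (m - 2) + (1 : F) • e (m - 1) + (0 : F) • d + (0 : F) • f (m - 1)
      = e (m - 1) := by module
  -- form values
  have hpmpm : Cfsg.hermForm n F q (e (m - 1) - (ε * a ^ q) • d + b • f (m - 1))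
      (e (m - 1) - (ε * a ^ q) • d + b • f (m - 1)) = 0 := by
    rw [epm, hf_cmb hF fr hm]
    simp only [herm_add_pow hF, herm_sub_pow hF, herm_neg_pow hF, mul_pow, one_pow,
      herm_pow_pow hF]
    linear_combination hb' + (a ^ q * a) * hNε
  have hpmv : Cfsg.hermForm n F q (e (m - 1) - (ε * a ^ q) • d + b • f (m - 1)) (e (m - 2)) = 0 := by
    have := hf_cmb hF fr hm 0 1 (-(ε * a ^ q)) b 1 0 0 0
    rw [← epm, ev] at this
    rw [this]
    simp only [zero_pow hq0]
    ring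
  have hwpm : Cfsg.hermForm n F q (e (m - 1)) (e (m - 1) - (ε * a ^ q) • d + b • f (m - 1))
      = b ^ q := by
    have := hf_cmb hF fr hm 0 1 0 0 0 1 (-(ε * a ^ q)) b
    rw [← epm, ew] at this
    rw [this]
    ring
  have hpmw : Cfsg.hermForm n F q (e (m - 1) - (ε * a ^ q) • d + b • f (m - 1)) (e (m - 1))
      = b := by
    have := hf_cmb hF fr hm 0 1 (-(ε * a ^ q)) b 0 1 0 0
    rw [← epm, ew] at this
    rw [this]
    simp only [zero_pow hq0, one_pow]
    ring
  have hstep : ∀ x ∈ A, ρ * x ∈ A := by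
    rintro x ⟨hx, hx'⟩
    obtain ⟨hwx, hvwx, -, -⟩ := hchain x hx hx'
    obtain ⟨hwc, hvwc, hpmc, hp2c⟩ := hchain c hc ht
    have hxq : x ^ q = -x := by linear_combination hx
    rcases hρ with ⟨h20, hρ⟩ | ⟨h20, hρ⟩
    · -- characteristic 2
      have hp2p2 : Cfsg.hermForm n F q
          (e (m - 2) + ((1 - ε * a ^ (q + 1) + b ^ 2) • e (m - 1) - (a ^ q * (ε + b)) • d
            + b • f (m - 1)))
          (e (m - 2) + ((1 - ε * a ^ (q + 1) + b ^ 2) • e (m - 1) - (a ^ q * (ε + b)) • d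
            + b • f (m - 1))) = 0 := by
        rw [ep2, hf_cmb hF fr hm]
        simp only [herm_add_pow hF, herm_sub_pow hF, herm_neg_pow hF, mul_pow, one_pow,
          herm_pow_pow hF]
        linear_combination (1 + b * b ^ q) * hb' + (a ^ q * a) * hNε
      have hp2v : Cfsg.hermForm n F q
          (e (m - 2) + ((1 - ε * a ^ (q + 1) + b ^ 2) • e (m - 1) - (a ^ q * (ε + b)) • d
            + b • f (m - 1))) (e (m - 2)) = 0 := by
        have := hf_cmb hF fr hm 1 (1 - ε * (a ^ q * a) + b * b) (-(a ^ q * (ε + b))) b 1 0 0 0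
        rw [← ep2, ev] at this
        rw [this]
        simp only [zero_pow hq0]
        ring
      have hwp2 : Cfsg.hermForm n F q (e (m - 1))
          (e (m - 2) + ((1 - ε * a ^ (q + 1) + b ^ 2) • e (m - 1) - (a ^ q * (ε + b)) • d
            + b • f (m - 1))) = b ^ q := by
        have := hf_cmb hF fr hm 0 1 0 0 1 (1 - ε * (a ^ q * a) + b * b) (-(a ^ q * (ε + b))) b
        rw [← ep2, ew] at this
        rw [this]
        ring
      have hpmp2 : Cfsg.hermForm n F q (e (m - 1) - (ε * a ^ q) • d + b • f (m - 1))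
          (e (m - 2) + ((1 - ε * a ^ (q + 1) + b ^ 2) • e (m - 1) - (a ^ q * (ε + b)) • d
            + b • f (m - 1))) = a ^ q * a * (ε * b ^ q - ε ^ q * b) + b ^ q * b * b ^ q := by
        rw [epm, ep2, hf_cmb hF fr hm]
        simp only [herm_add_pow hF, herm_sub_pow hF, herm_neg_pow hF, mul_pow, one_pow,
          herm_pow_pow hF]
        linear_combination hb' + (a ^ q * a) * hNε
      have key := hK _ _ _ _ x c c c hvv hww hvw hpmpm hp2p2 hpmv hp2v hx hc hc hc hx' hwx hvwx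
        ht hwc hvwc hpmc hp2c
      rw [hwpm, hwp2, hpmp2] at key
      refine ⟨?_, ?_⟩
      · have e2 : (c ^ 3) ^ q = -(c ^ 3) := by rw [pow_right_comm, hcq]; ring
        rw [hρ, hNb, hN, mul_pow ((b ^ q * b) ^ 2 * (a ^ q * a) * c ^ 3) x q,
          mul_pow ((b ^ q * b) ^ 2 * (a ^ q * a)) (c ^ 3) q,
          mul_pow ((b ^ q * b) ^ 2) (a ^ q * a) q, e1, e2, hNaq, hxq]
        linear_combination ((b ^ q * b) ^ 2 * (a ^ q * a) * c ^ 3 * x) * h20
      · refine (congrArg (TIn q H (e (m - 2))) ?_).mp key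
        rw [hρ, hNb, hN]
        simp only [herm_add_pow hF, herm_sub_pow hF, herm_neg_pow hF, mul_pow, one_pow,
          herm_pow_pow hF]
        linear_combination (x * c ^ 3 * (b ^ q * b) ^ 2) * hb' + (x * c ^ 3 * b ^ q * b *
          (a ^ q * a * (ε * b ^ q - ε ^ q * b) - b ^ q * b * (b + a ^ q * a))) * h20
    · -- odd characteristic
      have hP := hpmc.pres hH
      have hp2'c : TIn q H (Cfsg.unitaryTransvection n q
          (e (m - 1) - (ε * a ^ q) • d + b • f (m - 1)) c *ᵥ e (m - 1)) c :=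
        MIn.conj hpmc hwc (conj_transvection _ hP _ c)
      have ep2' : Cfsg.unitaryTransvection n q
          (e (m - 1) - (ε * a ^ q) • d + b • f (m - 1)) c *ᵥ e (m - 1)
          = (0 : F) • e (m - 2) + (1 + c * b ^ q) • e (m - 1)
            + (c * b ^ q * (-(ε * a ^ q))) • d + (c * b ^ q * b) • f (m - 1) := by
        rw [unitaryTransvection_mulVec, hwpm]
        module
      rw [ep2'] at hp2'c
      have hp2p2 : Cfsg.hermForm n F q
          ((0 : F) • e (m - 2) + (1 + c * b ^ q) • e (m - 1)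
            + (c * b ^ q * (-(ε * a ^ q))) • d + (c * b ^ q * b) • f (m - 1))
          ((0 : F) • e (m - 2) + (1 + c * b ^ q) • e (m - 1)
            + (c * b ^ q * (-(ε * a ^ q))) • d + (c * b ^ q * b) • f (m - 1)) = 0 := by
        rw [hf_cmb hF fr hm]
        simp only [herm_add_pow hF, herm_sub_pow hF, herm_neg_pow hF, mul_pow, one_pow,
          herm_pow_pow hF]
        linear_combination (b * b ^ q) * hc + (c * c ^ q * b * b ^ q) * hb'
          + (c * c ^ q * b * b ^ q * (a ^ q * a)) * hNε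
      have hp2v : Cfsg.hermForm n F q
          ((0 : F) • e (m - 2) + (1 + c * b ^ q) • e (m - 1)
            + (c * b ^ q * (-(ε * a ^ q))) • d + (c * b ^ q * b) • f (m - 1)) (e (m - 2)) = 0 := by
        have := hf_cmb hF fr hm 0 (1 + c * b ^ q) (c * b ^ q * (-(ε * a ^ q))) (c * b ^ q * b)
          1 0 0 0
        rw [ev] at this
        rw [this]
        simp only [zero_pow hq0]
        ring
      have hwp2 : Cfsg.hermForm n F q (e (m - 1))
          ((0 : F) • e (m - 2) + (1 + c * b ^ q) • e (m - 1)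
            + (c * b ^ q * (-(ε * a ^ q))) • d + (c * b ^ q * b) • f (m - 1))
          = c ^ q * b * b ^ q := by
        have := hf_cmb hF fr hm 0 1 0 0
          0 (1 + c * b ^ q) (c * b ^ q * (-(ε * a ^ q))) (c * b ^ q * b)
        rw [ew] at this
        rw [this]
        simp only [herm_add_pow hF, herm_sub_pow hF, herm_neg_pow hF, mul_pow, one_pow,
          herm_pow_pow hF]
        ring
      have hpmp2 : Cfsg.hermForm n F q (e (m - 1) - (ε * a ^ q) • d + b • f (m - 1))
          ((0 : F) • e (m - 2) + (1 + c * b ^ q) • e (m - 1)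
            + (c * b ^ q * (-(ε * a ^ q))) • d + (c * b ^ q * b) • f (m - 1)) = b := by
        rw [epm, hf_cmb hF fr hm]
        simp only [herm_add_pow hF, herm_sub_pow hF, herm_neg_pow hF, mul_pow, one_pow,
          herm_pow_pow hF]
        linear_combination (c ^ q * b) * hb' + (c ^ q * b * (a ^ q * a)) * hNε
      have key := hK _ _ _ _ x c c c hvv hww hvw hpmpm hp2p2 hpmv hp2v hx hc hc hc hx' hwx hvwx
        ht hwc hvwc hpmc hp2'c
      rw [hwpm, hwp2, hpmp2] at key
      have h2q : (2 : F) ^ q = 2 := by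
        have := herm_add_pow hF (1 : F) 1
        rw [one_pow, one_add_one_eq_two] at this
        exact this
      refine ⟨?_, ?_⟩
      · have e3 : (c ^ 4) ^ q = c ^ 4 := by rw [pow_right_comm, hcq]; ring
        rw [hρ, hNb, mul_pow (2 * (b ^ q * b) ^ 2 * c ^ 4) x q,
          mul_pow (2 * (b ^ q * b) ^ 2) (c ^ 4) q,
          mul_pow 2 ((b ^ q * b) ^ 2) q, e1, e3, h2q, hxq]
        ring
      · refine (congrArg (TIn q H (e (m - 2))) ?_).mp key
        rw [hρ, hNb]
        simp only [herm_add_pow hF, herm_sub_pow hF, herm_neg_pow hF, mul_pow, one_pow,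
          herm_pow_pow hF]
        linear_combination (-(b ^ 2 * (b ^ q) ^ 2 * x * c ^ 3)) * hc
  exact ⟨hvv, fun x hx => (hgen A hcA hstep x hx).2⟩

end Cfsg.Agent.Lib.Helper92.SUReg
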