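import Mathlib
import Cfsg.Agent.Lib.Helper52.SiegelSimple
import Cfsg.Prelude.Def_KGroupFacts

/-!
Job-board piece OU-AL5 (helper52's Out-of-orthogonal-groups project): the inner automorphism
group of `PΩ(Q)` has the order of `PΩ(Q)`.
-/

set_option autoImplicit false

namespace Cfsg.Agent.Lib.Helper92.OU

open Module QuadraticMap
open Cfsg.Agent.Lib.Helper51 Cfsg.Agent.Lib.Helper52

/-- A perfect simple group has trivial centre. -/
theorem center_eq_bot_of_perfect {G : Type*} [Group G] [IsSimpleGroup G]
    (hperf : commutator G = ⊤) : Subgroup.center G = ⊥ := by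
  rcases IsSimpleGroup.eq_bot_or_eq_top_of_normal (Subgroup.center G) inferInstance with h | h
  · exact h
  · exfalso
    have h1 : commutator G = ⊥ := (commutator_eq_bot_iff_center_eq_top G).2 h
    rw [hperf] at h1
    exact top_ne_bot h1

/-- A quotient of a perfect group is perfect. -/
theorem commutator_quotient_eq_top {G : Type*} [Group G] (N : Subgroup G) [N.Normal]
    (hperf : commutator G = ⊤) : commutator (G ⧸ N) = ⊤ := by
  rw [commutator_def, ← Subgroup.map_top_of_surjective (QuotientGroup.mk' N)
    (QuotientGroup.mk'_surjective N), ← Subgroup.map_commutator, ← commutator_def, hperf]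

/-- For a group with trivial centre the inner automorphism group has the order of the group. -/
theorem card_inn_of_center_eq_bot {G : Type*} [Group G] (hc : Subgroup.center G = ⊥) :
    Nat.card (Cfsg.Inn G) = Nat.card G := by
  have hinj : Function.Injective (MulAut.conj : G →* MulAut G) := by
    rw [injective_iff_map_eq_one]
    intro g hg
    have hgc : g ∈ Subgroup.center G := by
      rw [Subgroup.mem_center_iff]
      intro x
      have h1 : MulAut.conj g x = x := by rw [hg]; rfl
      rw [MulAut.conj_apply] at h1
      calc x * g = g * x * g⁻¹ * g := by rw [h1]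
        _ = g * x := by group
    rw [hc, Subgroup.mem_bot] at hgc
    exact hgc
  exact (Nat.card_congr (MonoidHom.ofInjective hinj).toEquiv).symm

variable {ι : Type} [Fintype ι] [DecidableEq ι] {F : Type*} [Field F]

/-- Piece OU-AL5. -/
theorem card_inn_POmega [Fintype F] (Q : QuadraticForm F (ι → F))
    (hQ : (polarBilin Q).Nondegenerate) (hn : 7 ≤ Fintype.card ι) :
    Nat.card (Cfsg.Inn (Cfsg.POmega F ⇑Q)) = Nat.card (Cfsg.POmega F ⇑Q) := by
  have hs : IsSimpleGroup (Cfsg.POmega F ⇑Q) := isSimpleGroup_POmega Q hQ hn
  apply card_inn_of_center_eq_bot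
  apply center_eq_bot_of_perfect
  have hn5 : 5 ≤ Fintype.card ι := by omega
  have hperf := commutator_omega_eq_top Q hQ hn5
  exact commutator_quotient_eq_top
    (Subgroup.center ↥(commutator ↥(Cfsg.isometryGroup F ⇑Q))) hperf

end Cfsg.Agent.Lib.Helper92.OU
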