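import Mathlib
import Cfsg.Agent.Lib.Helper93.Sp4Defs
import Cfsg.Agent.Lib.Helper48.PresMATBASE
import Cfsg.Agent.Lib.Helper74.PresMATREST

/-!
# S2293 piece SP4-MATRB (helper92 for helper93): the long-root `SL₂` relators hold in `Sp₄(F)`,
by transport along the block embedding `SL₂(F) → Sp₄(F)`
-/

set_option autoImplicit false

namespace Cfsg.Agent.Lib.Helper93.Sp4

open Polynomial Matrix
open Cfsg.Agent.Lib.Helper93.Sl3 (cj)

section mats

variable {F : Type*} [Field F]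

/-- the block embedding of `SL₂(F)` into `Sp₄(F)` on the long root `β` -/
def h92_emb (F : Type*) [Field F] :
    SpecialLinearGroup (Fin 2) F →* symplecticGroup (Fin 2) F where
  toFun A := ⟨fromBlocks !![1, 0; 0, A 0 0] !![0, 0; 0, A 0 1] !![0, 0; 0, A 1 0]
      !![1, 0; 0, A 1 1], by
    have hdet : A 0 0 * A 1 1 - A 0 1 * A 1 0 = 1 := by
      have h1 := A.det_coe
      rwa [Matrix.det_fin_two] at h1
    rw [SymplecticGroup.fromBlocks_mem_iff]
    refine ⟨?_, ?_, ?_⟩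
    · ext i j
      fin_cases i <;> fin_cases j <;> simp [Matrix.mul_apply, Fin.sum_univ_two, mul_comm]
    · ext i j
      fin_cases i <;> fin_cases j <;> simp [Matrix.mul_apply, Fin.sum_univ_two, mul_comm]
    · ext i j
      fin_cases i <;> fin_cases j <;> simp [Matrix.mul_apply, Fin.sum_univ_two]
      linear_combination hdet⟩
  map_one' := by
    apply Subtype.ext
    show fromBlocks _ _ _ _ = (1 : Matrix _ _ F)
    rw [← Matrix.fromBlocks_one]
    congr 1 <;> ext i j <;> fin_cases i <;> fin_cases j <;> simp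
  map_mul' A B := by
    apply Subtype.ext
    show fromBlocks _ _ _ _ = fromBlocks _ _ _ _ * fromBlocks _ _ _ _
    rw [Matrix.fromBlocks_multiply]
    congr 1 <;> ext i j <;> fin_cases i <;> fin_cases j <;>
      simp [Cfsg.Agent.Lib.Helper40.sl2_mul_00,
        Cfsg.Agent.Lib.Helper40.sl2_mul_01, Cfsg.Agent.Lib.Helper40.sl2_mul_10,
        Cfsg.Agent.Lib.Helper40.sl2_mul_11]

theorem h92_emb_u : h92_emb F (Pres.uM F) = sY (1 : F) := by
  apply Subtype.ext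
  show fromBlocks _ _ _ _ = (sY (1 : F)).1
  rw [sY_val]
  congr 1 <;> ext i j <;> fin_cases i <;> fin_cases j <;> simp [Pres.uM]

theorem h92_emb_h (ζ : F) (hζ0 : ζ ≠ 0) : h92_emb F (Pres.hM ζ hζ0) = sHb ζ hζ0 := by
  apply Subtype.ext
  show fromBlocks _ _ _ _ = (sHb ζ hζ0).1
  rw [sHb_val]
  congr 1 <;> ext i j <;> fin_cases i <;> fin_cases j <;> simp

theorem h92_emb_t : h92_emb F (Pres.tM F) = sTb F := by
  apply Subtype.ext
  show fromBlocks _ _ _ _ = (sTb F).1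
  rw [sTb_val]
  congr 1

/-- MATRB -/
theorem mat_relsB (p : ℕ) [Fact p.Prime] [CharP F p] [Algebra (ZMod p) F] (ζ : F) (hζ0 : ζ ≠ 0)
    (fz fzi : (ZMod p)[X]) (hfz : aeval (ζ ^ 2) fz = ζ) (hfzi : aeval (ζ ^ 2) fzi = ζ⁻¹) :
    (∀ r ∈ Pres.relsBase p (minpoly (ZMod p) (ζ ^ 2)) fz fzi (sY (1 : F)) (sHb ζ hζ0) (sTb F),
      r = 1) ∧
    (∀ k : ℕ, ζ ^ (2 * k) = (1 + ζ ^ 2) ^ 2 →
      ∀ r ∈ Pres.relsComm k (sY (1 : F)) (sHb ζ hζ0), r = 1) := by
  constructor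
  · intro r hr
    rw [← h92_emb_u, ← h92_emb_h ζ hζ0, ← h92_emb_t, ← Pres.map_relsBase] at hr
    obtain ⟨r0, hr0, rfl⟩ := List.mem_map.mp hr
    rw [Pres.mat_relsBase p ζ hζ0 fz fzi hfz hfzi r0 hr0, map_one]
  · intro k hk r hr
    rw [← h92_emb_u, ← h92_emb_h ζ hζ0, ← Pres.map_relsComm] at hr
    obtain ⟨r0, hr0, rfl⟩ := List.mem_map.mp hr
    rw [Pres.mat_relsComm ζ hζ0 k hk r0 hr0, map_one]

end mats

end Cfsg.Agent.Lib.Helper93.Sp4
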